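import Cfsg.Agent.Lib.Twisted.Inst

/-!
# Symbolic collection in the unipotent group, in characteristic two

Words in the root elements whose parameters are polynomials over the field with two elements in
named variables. A collection procedure, run by the kernel, rewrites a word into a normal form.
-/

set_option autoImplicit false
set_option linter.unusedSectionVars false

namespace Cfsg.Agent.Lib.Twisted.Coll

open Cfsg.Lie Cfsg.Agent.Lib.ChevBN.Elem Cfsg.Agent.Lib.ChevBN.Collect

/-- A monomial: a list of variables. -/
abbrev Mon := List ℕ

/-- A polynomial: a list of monomials. -/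
abbrev Pol := List Mon

/-- A word. -/
abbrev Wd := List (ℕ × Pol)

section Ev

variable {F : Type*} [Field F] (env : ℕ → F)

/-- The value of a monomial. -/
def evM (m : Mon) : F := (m.map env).prod

/-- The value of a polynomial. -/
def evP (p : Pol) : F := (p.map (evM env)).sum

/-- The value of a word. -/
def evW (w : Wd) : List (ℕ × F) := w.map fun l => (l.1, evP env l.2)

/-- The product of polynomials. -/
def mulP (p q : Pol) : Pol := p.flatMap fun m => q.map fun m' => m ++ m'

/-- The powers of a polynomial. -/
def powP (p : Pol) : ℕ → Pol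
  | 0 => [[]]
  | n + 1 => mulP (powP p n) p

@[simp] theorem evM_nil : evM env [] = 1 := rfl
@[simp] theorem evM_cons (a : ℕ) (m : Mon) : evM env (a :: m) = env a * evM env m := by simp [evM]
@[simp] theorem evP_nil : evP env [] = 0 := rfl
@[simp] theorem evP_cons (a : Mon) (p : Pol) : evP env (a :: p) = evM env a + evP env p := by simp [evP]

theorem evM_append (m m' : Mon) : evM env (m ++ m') = evM env m * evM env m' := by simp [evM]

theorem evP_append (p q : Pol) : evP env (p ++ q) = evP env p + evP env q := by simp [evP]

theorem evP_map_append (m : Mon) (q : Pol) :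
    evP env (q.map fun m' => m ++ m') = evM env m * evP env q := by
  induction q with
  | nil => simp
  | cons a q ih =>
    simp only [List.map_cons, evP_cons, ih, evM_append]
    ring

theorem evP_mulP (p q : Pol) : evP env (mulP p q) = evP env p * evP env q := by
  induction p with
  | nil => simp [mulP]
  | cons a p ih =>
    have e : mulP (a :: p) q = (q.map fun m' => a ++ m') ++ mulP p q := by simp [mulP]
    rw [e, evP_append, evP_map_append, ih, evP_cons]
    ring

theorem evP_powP (p : Pol) (n : ℕ) : evP env (powP p n) = evP env p ^ n := by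
  induction n with
  | zero => simp [powP]
  | succ n ih => rw [powP, evP_mulP, ih, pow_succ]

end Ev

/-! ### Normal forms of polynomials in characteristic two -/

/-- The order of monomials. -/
def monLe : Mon → Mon → Bool
  | [], _ => true
  | _ :: _, [] => false
  | a :: m, b :: m' => if a < b then true else if b < a then false else monLe m m'

/-- Cancel equal neighbours. -/
def canc : Pol → Pol
  | [] => []
  | [m] => [m]
  | m :: m' :: p => if m = m' then canc p else m :: canc (m' :: p)

/-- The normal form of a polynomial. -/
def normP (p : Pol) : Pol :=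
  canc (List.insertionSort (fun m m' => monLe m m' = true) (p.map (List.insertionSort (· ≤ ·))))

section NormP

variable {F : Type*} [Field F] [CharP F 2] (env : ℕ → F)

theorem evP_canc : ∀ p : Pol, evP env (canc p) = evP env p
  | [] => rfl
  | [_] => rfl
  | m :: m' :: p => by
    rw [canc]
    split_ifs with h
    · subst h
      rw [evP_canc p, evP_cons, evP_cons, ← add_assoc, CharTwo.add_self_eq_zero, zero_add]
    · rw [evP_cons, evP_canc (m' :: p)]
      simp only [evP_cons]

theorem evM_perm {m m' : Mon} (h : m.Perm m') : evM env m = evM env m' :=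
  (h.map env).prod_eq

theorem evP_perm {p q : Pol} (h : p.Perm q) : evP env p = evP env q :=
  (h.map (evM env)).sum_eq

theorem evP_normP (p : Pol) : evP env (normP p) = evP env p := by
  rw [normP, evP_canc, evP_perm env (List.perm_insertionSort _ _)]
  induction p with
  | nil => rfl
  | cons a p ih =>
    simp only [List.map_cons, evP_cons, ih]
    rw [evM_perm env (List.perm_insertionSort _ _)]

end NormP

/-! ### Collection -/

/-- The terms of the commutator formula. -/
def terms (D : ChevalleyDatum) (b a : ℕ) (v u : Pol) : Wd :=
  ((D.commTerms b a).filter fun c => decide (c.2.1 % 2 = 1)).map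
    fun c => (c.1, normP (mulP (powP v c.2.2.1) (powP u c.2.2.2)))

/-- Moving a letter into a word. -/
def insL (D : ChevalleyDatum) (ord : ℕ → ℕ) : ℕ → ℕ × Pol → Wd → Wd
  | 0, l, w => l :: w
  | _ + 1, l, [] => [l]
  | n + 1, (a, u), (b, v) :: w =>
    if a = b then (a, normP (u ++ v)) :: w
    else if ord a < ord b then (a, u) :: (b, v) :: w
    else if D.IsPosRoot a ∧ D.IsPosRoot b then
      (b, v) :: insL D ord n (a, u) ((terms D b a v u).foldr (insL D ord n) w)
    else (a, u) :: (b, v) :: w

/-- Collection. -/
def coll (D : ChevalleyDatum) (ord : ℕ → ℕ) (n : ℕ) (w : Wd) : Wd := w.foldr (insL D ord n) []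

/-- Add the missing letters. -/
def expand : List ℕ → Wd → Wd
  | [], w => w
  | r :: L, [] => (r, []) :: expand L []
  | r :: L, (s, p) :: w =>
    if r = s then (r, p) :: expand L w else (r, []) :: expand L ((s, p) :: w)

/-- Normalise the parameters. -/
def normW (w : Wd) : Wd := w.map fun l => (l.1, normP l.2)

/-- The normal form of a word. -/
def nfW (D : ChevalleyDatum) (ord : ℕ → ℕ) (n : ℕ) (L : List ℕ) (w : Wd) : Wd :=
  expand L (normW (coll D ord n w))

section Sound

variable {D : ChevalleyDatum} {F : Type*} [Field F] [CharP F 2] {hA : AddRel D F} (env : ℕ → F)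

theorem odd_cast {n : ℤ} (h : n % 2 = 1) : (n : F) = 1 := by
  have h2 : n = 2 * (n / 2) + 1 := by omega
  rw [h2]
  push_cast
  rw [CharTwo.two_eq_zero]
  simp

theorem even_cast {n : ℤ} (h : ¬ n % 2 = 1) : (n : F) = 0 := by
  have h2 : n = 2 * (n / 2) := by omega
  rw [h2]
  push_cast
  rw [CharTwo.two_eq_zero]
  simp

theorem W_terms (T : List (ℕ × ℤ × ℕ × ℕ)) (v u : Pol) :
    W hA (evW env ((T.filter fun c => decide (c.2.1 % 2 = 1)).map
      fun c => (c.1, normP (mulP (powP v c.2.2.1) (powP u c.2.2.2))))) =
    W hA (T.map fun c => (c.1, (c.2.1 : F) * (-evP env v) ^ c.2.2.1 * evP env u ^ c.2.2.2)) := by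
  induction T with
  | nil => simp [evW]
  | cons c T ih =>
    by_cases h : c.2.1 % 2 = 1
    · simp only [List.filter_cons, h, decide_true, if_true, List.map_cons, evW, W_cons] at ih ⊢
      rw [ih, odd_cast h, one_mul, evP_normP, evP_mulP, evP_powP, evP_powP, CharTwo.neg_eq]
    · simp only [List.filter_cons, h, decide_false, if_false, List.map_cons, evW, W_cons,
        Bool.false_eq_true] at ih ⊢
      rw [ih, even_cast h, zero_mul, zero_mul, X_zero, one_mul]

variable (hc : CommPos hA)
include hc

theorem W_foldr_insL {ord : ℕ → ℕ} (n : ℕ) (IH : ∀ (l : ℕ × Pol) (w : Wd), W hA (evW env (insL D ord n l w)) =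
      X hA l.1 (evP env l.2) * W hA (evW env w)) (T w : Wd) :
    W hA (evW env (T.foldr (insL D ord n) w)) = W hA (evW env T) * W hA (evW env w) := by
  induction T with
  | nil => simp [evW]
  | cons l T ih =>
    rw [List.foldr_cons, IH, ih]
    simp only [evW, List.map_cons, W_cons]
    group

theorem W_insL {ord : ℕ → ℕ} : ∀ (n : ℕ) (l : ℕ × Pol) (w : Wd),
    W hA (evW env (insL D ord n l w)) = X hA l.1 (evP env l.2) * W hA (evW env w)
  | 0, l, w => by simp [insL, evW]
  | _ + 1, l, [] => by simp [insL, evW]
  | n + 1, (a, u), (b, v) :: w => by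
    rw [insL]
    split_ifs with h1 h2 h3
    · subst h1
      simp only [evW, List.map_cons, W_cons, evP_normP, evP_append]
      rw [← mul_assoc, X_mul]
    · simp [evW]
    · obtain ⟨h3, h4⟩ := h3
      have h5 := hc b a h4 h3 h1 (evP env v) (evP env u)
      have h6 : W hA (evW env (terms D b a v u)) =
          W hA (D.commWord F b a (evP env v) (evP env u)) := W_terms env _ v u
      have h7 := W_foldr_insL env hc (ord := ord) n (fun l w => W_insL (ord := ord) n l w) (terms D b a v u) w
      have h8 := W_insL (ord := ord) n (a, u) ((terms D b a v u).foldr (insL D ord n) w)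
      have e : ∀ (x : ℕ) (p : Pol) (w : Wd), W hA (evW env ((x, p) :: w)) =
          X hA x (evP env p) * W hA (evW env w) := by
        intro x p w
        simp [evW]
      rw [e, h8, h7, e, h6]
      simp only
      calc X hA b (evP env v) * (X hA a (evP env u) * (W hA (D.commWord F b a (evP env v) (evP env u)) * W hA (evW env w)))
          = (X hA b (evP env v) * X hA a (evP env u) * W hA (D.commWord F b a (evP env v) (evP env u))) * W hA (evW env w) := by group
        _ = X hA a (evP env u) * X hA b (evP env v) * W hA (evW env w) := by rw [← h5]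
        _ = _ := by group
    · simp [evW]

theorem W_coll {ord : ℕ → ℕ} (n : ℕ) (w : Wd) :
    W hA (evW env (coll D ord n w)) = W hA (evW env w) := by
  induction w with
  | nil => rfl
  | cons l w ih =>
    rw [coll, List.foldr_cons, W_insL env hc]
    rw [coll] at ih
    rw [ih]
    simp [evW]

omit hc in
theorem W_expand : ∀ (L : List ℕ) (w : Wd), W hA (evW env (expand L w)) = W hA (evW env w)
  | [], w => by simp [expand]
  | r :: L, [] => by
    have := W_expand L []
    simp only [expand, evW, List.map_cons, W_cons, evP_nil, X_zero, one_mul] at this ⊢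
    exact this
  | r :: L, (s, p) :: w => by
    rw [expand]
    split_ifs with h
    · subst h
      have := W_expand L w
      simp only [evW, List.map_cons, W_cons] at this ⊢
      rw [this]
    · have := W_expand L ((s, p) :: w)
      simp only [evW, List.map_cons, W_cons, evP_nil, X_zero, one_mul] at this ⊢
      exact this

omit hc in
theorem evW_normW (w : Wd) : evW env (normW w) = evW env w := by
  induction w with
  | nil => rfl
  | cons l w ih =>
    simp only [normW, evW, List.map_cons] at ih ⊢
    rw [ih, evP_normP]

/-- Soundness of the normal form. -/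
theorem W_nfW {ord : ℕ → ℕ} (n : ℕ) (L : List ℕ) (w : Wd) :
    W hA (evW env (nfW D ord n L w)) = W hA (evW env w) := by
  rw [nfW, W_expand, evW_normW, W_coll env hc]

end Sound

/-! ### Coordinates -/

/-- The coordinate of a word. -/
def look (w : Wd) (r : ℕ) : Pol := (w.lookup r).getD []

section Coord

variable {D : ChevalleyDatum} {F : Type*} [Field F] {hA : AddRel D F}

/-- The normal element with given coordinates. -/
noncomputable def uL (hA : AddRel D F) (L : List ℕ) (t : ℕ → F) : GL D.Idx F := W hA (L.map fun r => (r, t r))

/-- The coordinates of a word. -/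
def ofW (env : ℕ → F) (w : Wd) : ℕ → F := fun r => evP env (look w r)

theorem evW_eq_of_keys (env : ℕ → F) (w : Wd) (hn : (w.map Prod.fst).Nodup) :
    evW env w = (w.map Prod.fst).map fun r => (r, ofW env w r) := by
  induction w with
  | nil => rfl
  | cons l w ih =>
    obtain ⟨a, p⟩ := l
    simp only [List.map_cons, List.nodup_cons] at hn
    have h0 : ofW env ((a, p) :: w) a = evP env p := by
      simp [ofW, look]
    have h1 : ∀ r ∈ w.map Prod.fst, ofW env ((a, p) :: w) r = ofW env w r := by
      intro r hr
      have hne : r ≠ a := fun h => hn.1 (h ▸ hr)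
      have hb : (r == a) = false := by simpa using hne
      have : ((a, p) :: w).lookup r = w.lookup r := by
        simp [List.lookup, hb]
      simp [ofW, look, this]
    simp only [evW, List.map_cons] at ih ⊢
    rw [ih hn.2, h0]
    congr 1
    exact List.map_congr_left fun r hr => by rw [h1 r hr]

/-- A word with the right letters is the normal element of its coordinates. -/
theorem W_eq_uL (env : ℕ → F) {w : Wd} {L : List ℕ} (hL : w.map Prod.fst = L) (hn : L.Nodup) :
    W hA (evW env w) = uL hA L (ofW env w) := by
  rw [evW_eq_of_keys env w (hL ▸ hn), hL, uL]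

end Coord

end Cfsg.Agent.Lib.Twisted.Coll
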