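import Cfsg.Agent.Lib.Twisted.Coll
import Cfsg.Agent.Lib.ChevBN.GraphFix

/-!
# Coordinates on the fixed points of the unipotent group, in characteristic two
-/

set_option autoImplicit false
set_option linter.unusedSectionVars false

namespace Cfsg.Agent.Lib.Twisted.Coll

open Cfsg.Lie Cfsg.Agent.Lib.ChevBN.Elem Cfsg.Agent.Lib.ChevBN.Collect Cfsg.Agent.Lib.ChevBN.Table
open Cfsg.Agent.Lib.ChevBN.Rel Cfsg.Agent.Lib.ChevBN.Stmts Cfsg.Agent.Lib.ChevBN.GraphFix
open Cfsg.Agent.Lib.ChevBN.Opp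

/-- The word of the variables. -/
def idW (L : List ℕ) : Wd := L.map fun r => (r, [[r]])

/-- The check for uniqueness of coordinates. -/
def tailOK (D : ChevalleyDatum) : List ℕ → Bool
  | [] => true
  | r :: L => decide (D.IsPosRoot r) && L.all (fun s => decide (D.IsPosRoot s) && !(r == s) &&
      (D.chain.getD s #[]).toList.all fun e => !(e.1 == D.neg r) || e.2.toList.all fun q => decide (D.IsPosRoot q.1)) &&
      tailOK D L

variable {D : ChevalleyDatum} {F : Type*} [Field F] {η : ℕ → ℕ → ℤ}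

section Basic

variable {hA : AddRel D F}

@[simp] theorem evP_single (env : ℕ → F) (r : ℕ) : evP env [[r]] = env r := by simp

theorem evW_idW (t : ℕ → F) (L : List ℕ) : evW t (idW L) = L.map fun r => (r, t r) := by
  simp [evW, idW]

theorem uL_eq (t : ℕ → F) (L : List ℕ) : uL hA L t = W hA (evW t (idW L)) := by
  rw [evW_idW, uL]

theorem evW_idW' (env : ℕ → F) (t : ℕ → F) (L : List ℕ) (h : ∀ r ∈ L, env r = t r) :
    W hA (evW env (idW L)) = uL hA L t := by
  rw [uL, evW, idW, List.map_map]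
  congr 1
  exact List.map_congr_left fun r hr => by simp [h r hr]

theorem uL_congr {t t' : ℕ → F} {L : List ℕ} (h : ∀ r ∈ L, t r = t' r) : uL hA L t = uL hA L t' := by
  rw [uL, uL]
  congr 1
  exact List.map_congr_left fun r hr => by rw [h r hr]

theorem uL_zero (L : List ℕ) : uL hA L (fun _ => 0) = 1 := by
  induction L with
  | nil => rfl
  | cons a L ih =>
    rw [uL] at ih ⊢
    simp only [List.map_cons, W_cons, X_zero, one_mul]
    exact ih

theorem uL_cons (a : ℕ) (L : List ℕ) (t : ℕ → F) : uL hA (a :: L) t = X hA a (t a) * uL hA L t := by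
  simp [uL]

/-- Uniqueness of the coordinates. -/
theorem uL_inj (hT : Tbl D) {L : List ℕ} (h : tailOK D L = true) {t t' : ℕ → F}
    (he : uL hA L t = uL hA L t') : ∀ r ∈ L, t r = t' r := by
  induction L with
  | nil => simp
  | cons a L ih =>
    simp only [tailOK, Bool.and_eq_true, decide_eq_true_eq, List.all_eq_true] at h
    obtain ⟨⟨h1, h2⟩, h3⟩ := h
    rw [uL_cons, uL_cons] at he
    have hmem : ∀ v : ℕ → F, uL hA L v ∈ gen hA {s | s ∈ L} := by
      intro v
      apply W_mem_gen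
      intro p hp
      obtain ⟨r, hr, rfl⟩ := List.mem_map.mp hp
      exact hr
    have h4 : X hA a (-t' a + t a) ∈ gen hA {s | s ∈ L} := by
      have h5 : X hA a (-t' a + t a) = uL hA L t' * (uL hA L t)⁻¹ := by
        rw [← X_mul, ← X_inv, eq_mul_inv_iff_mul_eq, mul_assoc, he, inv_mul_cancel_left]
      rw [h5]
      exact Subgroup.mul_mem _ (hmem _) (Subgroup.inv_mem _ (hmem _))
    have h6 := eq_zero_of_X_mem' (hA := hA) hT h1 (Ψ := {s | s ∈ L}) (fun s hs => by
      obtain ⟨⟨h7, h8⟩, h9⟩ := by simpa only [Bool.and_eq_true, decide_eq_true_eq, Bool.not_eq_true', beq_eq_false_iff_ne,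
        ne_eq, List.all_eq_true, Bool.or_eq_true, Bool.not_eq_true', beq_iff_eq] using h2 s hs
      refine ⟨h7, h8, fun e he hn q hq => ?_⟩
      rcases h9 e he with h10 | h10
      · exact absurd hn (by simpa using h10)
      · exact h10 q hq) h4
    have h7 : t a = t' a := by
      have : t a = t' a + (-t' a + t a) := by ring
      rw [this, h6, add_zero]
    intro r hr
    rcases List.mem_cons.mp hr with rfl | hr'
    · exact h7
    · rw [h7] at he
      exact ih h3 (mul_left_cancel he) r hr'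

end Basic

section Char2

variable [CharP F 2] {hA : AddRel D F} (hc : CommPos hA)

theorem X_inv2 (r : ℕ) (c : F) : (X hA r c)⁻¹ = X hA r c := by
  rw [X_inv, CharTwo.neg_eq]

theorem W_inv2 (l : List (ℕ × F)) : (W hA l)⁻¹ = W hA l.reverse := by
  induction l with
  | nil => simp
  | cons p l ih =>
    rw [W_cons, _root_.mul_inv_rev, ih, X_inv2, List.reverse_cons, W_append]
    simp

include hc

/-- A word with the right letters is a normal element. -/
theorem W_eq_nf (env : ℕ → F) {ord : ℕ → ℕ} {n : ℕ} {L : List ℕ} {w : Wd}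
    (hkeys : (nfW D ord n L w).map Prod.fst = L) (hnd : L.Nodup) :
    W hA (evW env w) = uL hA L (ofW env (nfW D ord n L w)) := by
  rw [← W_nfW env hc n L w, W_eq_uL env hkeys hnd]

/-- Conjugation of a normal element by a word. -/
theorem conj_uL (env t : ℕ → F) {ord : ℕ → ℕ} {n : ℕ} {L : List ℕ} (wY : Wd)
    (henv : ∀ r ∈ L, env r = t r)
    (hkeys : (nfW D ord n L (wY ++ idW L ++ wY.reverse)).map Prod.fst = L) (hnd : L.Nodup) :
    W hA (evW env wY) * uL hA L t * (W hA (evW env wY))⁻¹ =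
      uL hA L (ofW env (nfW D ord n L (wY ++ idW L ++ wY.reverse))) := by
  rw [← W_eq_nf hc env hkeys hnd, W_inv2, ← evW_idW' env t L henv]
  simp only [evW, List.map_append, W_append, List.map_reverse]

/-- The square of a normal element. -/
theorem sq_uL (t : ℕ → F) {ord : ℕ → ℕ} {n : ℕ} {L : List ℕ}
    (hkeys : (nfW D ord n L (idW L ++ idW L)).map Prod.fst = L) (hnd : L.Nodup) :
    uL hA L t * uL hA L t = uL hA L (ofW t (nfW D ord n L (idW L ++ idW L))) := by
  rw [← W_eq_nf hc t hkeys hnd]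
  simp only [evW, List.map_append, W_append, uL_eq t L]

/-- An involution has vanishing coordinates of the square. -/
theorem sq_coord (hT : Tbl D) (t : ℕ → F) {ord : ℕ → ℕ} {n : ℕ} {L : List ℕ}
    (hkeys : (nfW D ord n L (idW L ++ idW L)).map Prod.fst = L) (hnd : L.Nodup) (htail : tailOK D L = true)
    (h : uL hA L t * uL hA L t = 1) : ∀ r ∈ L, ofW t (nfW D ord n L (idW L ++ idW L)) r = 0 := by
  rw [sq_uL hc t hkeys hnd, ← uL_zero (hA := hA) L] at h
  exact uL_inj hT htail h

/-- Every element of the unipotent group is a normal element. -/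
theorem exists_uL (hT : Tbl D) {ord : ℕ → ℕ} {n : ℕ} {L : List ℕ}
    (hU : D.posUnipotent F = gen hA {r | r ∈ D.posRoots})
    (hkeys : (nfW D ord n L (idW D.posRoots)).map Prod.fst = L) (hnd : L.Nodup) {g : GL D.Idx F}
    (hg : g ∈ D.posUnipotent F) : ∃ t : ℕ → F, g = uL hA L t := by
  have h1 := exists_ordered hT hc D.posRoots
    (List.Pairwise.filter _ List.pairwise_lt_range) (fun r hr => Cfsg.Agent.Lib.ChevBN.Stmts.mem_posRoots.1 hr)
    (fun r hr s hs hrs c hc' => Cfsg.Agent.Lib.ChevBN.Stmts.mem_posRoots.2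
      (hT.comm_keys r s (Cfsg.Agent.Lib.ChevBN.Stmts.mem_posRoots.1 hr) (Cfsg.Agent.Lib.ChevBN.Stmts.mem_posRoots.1 hs) hrs.ne c hc').2.2.1) g (hU ▸ hg)
  obtain ⟨t, rfl⟩ := h1
  refine ⟨ofW t (nfW D ord n L (idW D.posRoots)), ?_⟩
  rw [← W_eq_nf hc t hkeys hnd, evW_idW]

end Char2

section Tw

variable [CharP F 2] {hA : AddRel D F} (hc : CommPos hA) (T : Tw hA)

theorem s_W (l : List (ℕ × F)) (hl : ∀ p ∈ l, p.1 < D.nroots) :
    T.s (W hA l) = W hA (l.map fun p => (T.ρ p.1, T.τ p.1 p.2)) := by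
  induction l with
  | nil => simpa using T.s_one
  | cons p l ih =>
    have h1 : ∀ p ∈ l, p.1 < D.nroots := fun p hp => hl p (by simp [hp])
    have h2 : W hA l ∈ D.group F := by
      rw [group_eq hA]
      exact W_mem_gen _ (Ψ := {r | r < D.nroots}) h1
    rw [W_cons, T.s_mul _ (Tw.X_mem_group (hl p (by simp)) _) _ h2, T.s_X _ (hl p (by simp)), ih h1]
    simp

variable {φ : F →+* F} {ε : ℕ → ℤ} {ρi : ℕ → ℕ}
  (hτ : ∀ r t, T.τ r t = ((ε r : ℤ) : F) * φ t)

include hc hτ

/-- The twisting map on normal elements. -/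
theorem s_uL {ord : ℕ → ℕ} {n : ℕ} {L : List ℕ} (hL : ∀ r ∈ L, r < D.nroots) (hε : ∀ r ∈ L, ε r % 2 = 1)
    (hchk : nfW D ord n L (L.map fun r => (T.ρ r, [[r]])) = L.map fun r => (r, [[ρi r]])) (t : ℕ → F) :
    T.s (uL hA L t) = uL hA L (fun r => φ (t (ρi r))) := by
  have h1 : T.s (uL hA L t) = W hA (evW (fun r => φ (t r)) (L.map fun r => (T.ρ r, [[r]]))) := by
    rw [uL, s_W T _ (by
      intro p hp
      obtain ⟨r, hr, rfl⟩ := List.mem_map.mp hp
      exact hL r hr), List.map_map, evW, List.map_map]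
    congr 1
    refine List.map_congr_left fun r hr => ?_
    simp [hτ, odd_cast (hε r hr)]
  rw [h1, ← W_nfW _ hc n L, hchk, uL, evW, List.map_map]
  congr 1
  exact List.map_congr_left fun r hr => by simp

/-- Fixed normal elements. -/
theorem fix_of_uL {ord : ℕ → ℕ} {n : ℕ} {L : List ℕ} (hT : Tbl D) (hL : ∀ r ∈ L, r < D.nroots) (hε : ∀ r ∈ L, ε r % 2 = 1)
    (hchk : nfW D ord n L (L.map fun r => (T.ρ r, [[r]])) = L.map fun r => (r, [[ρi r]]))
    (htail : tailOK D L = true) {t : ℕ → F} (h : uL hA L t ∈ T.Fx) : ∀ r ∈ L, t r = φ (t (ρi r)) := by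
  have h1 := h.2
  rw [s_uL hc T hτ hL hε hchk] at h1
  intro r hr
  exact (uL_inj hT htail h1 r hr).symm

theorem uL_mem_group {L : List ℕ} (hL : ∀ r ∈ L, r < D.nroots) (t : ℕ → F) : uL hA L t ∈ D.group F := by
  rw [group_eq hA]
  apply W_mem_gen (Ψ := {r | r < D.nroots})
  intro p hp
  obtain ⟨r, hr, rfl⟩ := List.mem_map.mp hp
  exact hL r hr

theorem uL_mem_Fx {ord : ℕ → ℕ} {n : ℕ} {L : List ℕ} (hL : ∀ r ∈ L, r < D.nroots) (hε : ∀ r ∈ L, ε r % 2 = 1)
    (hchk : nfW D ord n L (L.map fun r => (T.ρ r, [[r]])) = L.map fun r => (r, [[ρi r]]))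
    {t : ℕ → F} (h : ∀ r ∈ L, t r = φ (t (ρi r))) : uL hA L t ∈ T.Fx := by
  refine ⟨uL_mem_group hc T hτ hL t, ?_⟩
  rw [s_uL hc T hτ hL hε hchk]
  exact uL_congr fun r hr => (h r hr).symm

end Tw

section Weyl

variable [CharP F 2]

theorem eta_cast (hR : Sys D F η) {i s : ℕ} (hi : i < D.rank) (hs : s < D.nroots) : ((η i s : ℤ) : F) = 1 := by
  rcases hR.eta_sign i hi s hs with h | h
  · simp [h]
  · rw [h]
    push_cast
    exact CharTwo.neg_eq (1 : F)

variable (hR : Sys D F η) (hT : Tbl D)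

include hR hT

/-- Conjugation by a Weyl word. -/
theorem prodA_conj2 {l : List ℕ} (hl : ∀ i ∈ l, i < D.rank) {r : ℕ} (hr : r < D.nroots) (t : F) :
    prodA hR l * X hR.toAddRel r t * (prodA hR l)⁻¹ = X hR.toAddRel (l.foldr D.reflectRoot r) t := by
  induction l with
  | nil => simp [prodA]
  | cons a l ih =>
    have h1 : ∀ i ∈ l, i < D.rank := fun i hi => hl i (by simp [hi])
    have hal : a < D.rank := hl a (by simp)
    have h2 := (prodA_conj hR hT h1 hr).1
    have e : prodA hR (a :: l) = A hR a * prodA hR l := by simp [prodA]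
    have h3 := A_conj_X hR hal h2 t
    rw [eta_cast hR hal h2, one_mul] at h3
    rw [e, List.foldr_cons, ← h3, ← ih h1]
    group

theorem prodA_conj_W {l : List ℕ} (hl : ∀ i ∈ l, i < D.rank) (w : List (ℕ × F)) (hw : ∀ p ∈ w, p.1 < D.nroots) :
    prodA hR l * W hR.toAddRel w * (prodA hR l)⁻¹ =
      W hR.toAddRel (w.map fun p => (l.foldr D.reflectRoot p.1, p.2)) := by
  induction w with
  | nil => simp
  | cons p w ih =>
    have h1 := ih fun p hp => hw p (by simp [hp])
    have h2 := prodA_conj2 hR hT hl (hw p (by simp)) p.2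
    simp only [List.map_cons, W_cons]
    rw [← h1, ← h2]
    group

/-- Conjugation of a normal element by a Weyl word, when the coordinates in `Z` vanish. -/
theorem weyl_uL {l : List ℕ} (hl : ∀ i ∈ l, i < D.rank) {ord : ℕ → ℕ} {n : ℕ} {L Z : List ℕ}
    (hL : ∀ r ∈ L, r < D.nroots) {t : ℕ → F} (hZ : ∀ r ∈ Z, t r = 0)
    (hkeys : (nfW D ord n L ((L.filter (fun r => !Z.contains r)).map fun r => (l.foldr D.reflectRoot r, [[r]]))).map Prod.fst = L)
    (hnd : L.Nodup) :
    prodA hR l * uL hR.toAddRel L t * (prodA hR l)⁻¹ =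
      uL hR.toAddRel L (ofW t (nfW D ord n L ((L.filter (fun r => !Z.contains r)).map fun r => (l.foldr D.reflectRoot r, [[r]])))) := by
  have h1 : ∀ L' : List ℕ, uL hR.toAddRel L' t = W hR.toAddRel ((L'.filter (fun r => !Z.contains r)).map fun r => (r, t r)) := by
    intro L'
    induction L' with
    | nil => rfl
    | cons a L' ih =>
      rw [uL_cons, ih]
      by_cases h : a ∈ Z
      · simp [List.filter_cons, hZ a h, h]
      · simp [List.filter_cons, h]
  rw [h1, prodA_conj_W hR hT hl _ (by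
    intro p hp
    obtain ⟨r, hr, rfl⟩ := List.mem_map.mp hp
    exact hL r (List.mem_of_mem_filter hr)), ← W_eq_nf (commPos hR) t hkeys hnd, evW, List.map_map, List.map_map]
  congr 1
  exact List.map_congr_left fun r hr => by simp

end Weyl

end Cfsg.Agent.Lib.Twisted.Coll
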